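import Cfsg.Agent.H52.RCSpec

/-! Tower RC, job LZ: basic facts on good elements. -/

set_option autoImplicit false

namespace H86.RC
open H52.RC Subgroup
universe u

theorem card_le_two_iff (R : Type*) [Group R] [Finite R] :
    Nat.card R ≤ 2 ↔ ∀ a b : R, a ≠ 1 → b ≠ 1 → a = b := by
  classical
  haveI := Fintype.ofFinite R
  rw [Nat.card_eq_fintype_card, ← not_lt, Fintype.two_lt_card_iff]
  constructor
  · intro h a b ha hb
    by_contra hab
    exact h ⟨1, a, b, ha.symm, hb.symm, hab⟩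
  · rintro h ⟨a, b, c, hab, hac, hbc⟩
    have := h (a⁻¹ * b) (a⁻¹ * c) (fun e => hab (inv_mul_eq_one.1 e))
      (fun e => hac (inv_mul_eq_one.1 e))
    exact hbc (mul_left_cancel this)

theorem v2_le {G : Type u} [Group G] [Finite G] {A B : Subgroup G} (h : A ≤ B) :
    v2 A ≤ v2 B := by
  unfold v2
  exact (Nat.factorization_le_iff_dvd Nat.card_pos.ne' Nat.card_pos.ne').2
    (card_dvd_of_le h) 2

theorem jobLZ : JobLZ.{u} := by
  intro hKA hKB _ hEX hLC G _ _ m L _ hSt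
  obtain ⟨hH, hQ⟩ := hSt
  obtain ⟨⟨x, hxL, hx1, hxo, g0, hg0L, hg0⟩, -⟩ := hEX G L hQ
  have h2 : ∀ z ∈ Zc L, z ^ 2 = 1 → z ∈ center G := by
    intro z hz hz2
    by_contra hc
    exact hx1 ((hLC G m hH).2 z hz2 hc x (mem_C1.2 ((mem_Zc.1 hz).2 x hxL)) g0
      (mem_C1.2 ((mem_Zc.1 hz).2 g0 hg0L)) hxo hg0)
  have h3 : ∀ g ∈ L, g ∈ center G → g ∈ Zc L := fun g hg hc =>
    mem_Zc.2 ⟨hg, fun y _ => mem_center_iff.1 hc y⟩
  refine ⟨?_, h2, h3, ?_⟩
  · have := (hKB G m hH x hxo hx1 ⟨g0, hg0⟩).2.2.1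
    have h := v2_le (le_top : Cs x ≤ ⊤)
    omega
  intro v hv
  obtain ⟨hvL, hvZ, hv2, s, hsL, hs⟩ := hv
  have hP : P2 v := by
    obtain ⟨k, hk⟩ := hQ.zc ⟨v ^ 2, hv2⟩
    refine ⟨k + 1, ?_⟩
    have := congrArg Subtype.val hk
    simp only [SubgroupClass.coe_pow, OneMemClass.coe_one] at this
    rw [pow_succ', pow_mul, this]
  have hnc : v ∉ center G := fun h => hvZ (h3 v hvL h)
  have hm : v2 (C1 v) = m := hH v ⟨s, hs⟩ hnc
  have h4 : v ^ 4 = 1 := by
    have e1 : s * v ^ 2 * s⁻¹ = (v ^ 2)⁻¹ := hs.pow 2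
    have e2 : s * v ^ 2 = v ^ 2 * s := ((mem_Zc.1 hv2).2 s hsL).eq
    rw [e2, mul_inv_cancel_right] at e1
    calc v ^ 4 = v ^ 2 * v ^ 2 := by rw [← pow_add]
      _ = 1 := by nth_rewrite 1 [e1]; group
  have hc2 : v ^ 2 ∈ center G := h2 _ hv2 (by rw [← pow_mul]; exact h4)
  have hz2 : ∀ g ∈ Ct L v, (g * v * g⁻¹ * v⁻¹) ^ 2 = 1 := by
    intro g hg
    have hcm : Commute v (g * v * g⁻¹ * v⁻¹) := (mem_Zc.1 (mem_Ct.1 hg)).2 v hvL
    have e : (g * v * g⁻¹ * v⁻¹) ^ 2 * v ^ 2 = v ^ 2 := by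
      rw [← hcm.symm.mul_pow, inv_mul_cancel_right, conj_pow, mem_center_iff.1 hc2 g]; group
    simpa using e
  have hzc : ∀ g ∈ Ct L v, g * v * g⁻¹ * v⁻¹ ∈ center G := fun g hg =>
    h2 _ (mem_Ct.1 hg) (hz2 g hg)
  have hsq : ∀ g ∈ Ct L v, Commute (g ^ 2) v := by
    intro g hg
    have e1 := hz2 g hg
    have e2 := mem_center_iff.1 (hzc g hg) g
    set z := g * v * g⁻¹ * v⁻¹ with hz
    have e3 : g * v = z * v * g := by rw [hz]; group
    show g ^ 2 * v = v * g ^ 2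
    calc g ^ 2 * v = g * (g * v) := by rw [pow_two, mul_assoc]
      _ = (g * z) * v * g := by rw [e3]; group
      _ = z * (g * v) * g := by rw [e2]; group
      _ = z ^ 2 * v * g ^ 2 := by rw [e3, pow_two, pow_two]; group
      _ = v * g ^ 2 := by rw [e1, one_mul]
  have hnorm : ∀ g ∈ Ct L v, g ∈ normalizer (C1 v : Set G) := by
    intro g hg
    rw [mem_normalizer_iff]
    intro h
    rw [mem_C1, mem_C1]
    have hz := mem_center_iff.1 (hzc g hg)
    set z := g * v * g⁻¹ * v⁻¹ with hzd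
    have e3 : g * v * g⁻¹ = z * v := by rw [hzd]; group
    have hcz : ∀ y : G, Commute y z := fun y => hz y
    constructor
    · intro hc
      have e4 : Commute (g * h * g⁻¹) (z * v) := by rw [← e3]; exact hc.conj g
      have e5 := (hcz (g * h * g⁻¹)).inv_right.mul_right e4
      rwa [inv_mul_cancel_left] at e5
    · intro hc
      have e4 : Commute (g * h * g⁻¹) (g * v * g⁻¹) := by rw [e3]; exact (hcz _).mul_right hc
      have e5 := e4.conj g⁻¹
      simpa [mul_assoc] using e5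
  have hle : C1 v ≤ Ct L v := by
    intro g hg
    rw [mem_Ct, (mem_C1.1 hg).eq]
    simp
  let φ : Ct L v →* G := MonoidHom.mk' (fun g => (g : G) * v * (g : G)⁻¹ * v⁻¹) (by
    intro a b
    have e := mem_center_iff.1 (hzc b b.2)
    simp only [Subgroup.coe_mul]
    calc (a : G) * b * v * ((a : G) * b)⁻¹ * v⁻¹
        = a * ((b : G) * v * (b : G)⁻¹ * v⁻¹) * (v * (a : G)⁻¹ * v⁻¹) := by group
      _ = a * (v * (a : G)⁻¹ * v⁻¹) * ((b : G) * v * (b : G)⁻¹ * v⁻¹) := by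
        rw [mul_assoc (a : G) _ (v * (a : G)⁻¹ * v⁻¹), ← e]; group
      _ = _ := by group)
  have hφ : ∀ g : Ct L v, φ g = (g : G) * v * (g : G)⁻¹ * v⁻¹ := fun _ => rfl
  have hker : φ.ker = (C1 v).subgroupOf (Ct L v) := by
    ext g
    rw [MonoidHom.mem_ker, mem_subgroupOf, mem_C1, hφ, mul_inv_eq_one, mul_inv_eq_iff_eq_mul]
    rfl
  have hidx : (C1 v).relIndex (Ct L v) = Nat.card φ.range := by
    rw [relIndex, ← hker, index_ker]
  have hrange : φ.range ≤ Zc L := by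
    rintro _ ⟨g, rfl⟩
    exact mem_Ct.1 g.2
  haveI : Fact (Nat.Prime 2) := ⟨Nat.prime_two⟩
  obtain ⟨j, hj⟩ := (hQ.zc.to_le hrange).exists_card_eq
  refine ⟨hP, hnc, hm, hc2, h4, fun g hg => ⟨hzc g hg, hz2 g hg, hsq g hg, hnorm g hg, ?_⟩,
    ?_, ?_, ?_⟩
  · rintro ⟨k, hk⟩
    have e : (g ^ 2) ^ (k + 1) = g := by
      rw [← pow_mul, show 2 * (k + 1) = (2 * k + 1) + 1 by ring, ← hk, pow_succ,
        pow_orderOf_eq_one, one_mul]
    rw [← e]
    exact (hsq g hg).pow_left _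
  · intro P hPs
    obtain ⟨-, -, -, -, -, -, -, h8, -⟩ := hKA G
    obtain ⟨c1, c2, -⟩ := h8 _ _ hPs
    have c3 := (h8 _ _ (c2 (C1 v) (fun g hg => hnorm g hg) hle)).1
    refine ⟨by rw [c3, hm], ?_⟩
    rw [c1, hidx, hj, ← pow_add]
    congr 1
    have e : Nat.card (Ct L v) = Nat.card (C1 v) * 2 ^ j := by
      rw [← hj, ← hidx, relIndex, ← card_mul_index ((C1 v).subgroupOf (Ct L v)),
        Nat.card_congr (subgroupOfEquivOfLe hle).toEquiv]
    unfold v2 at hm ⊢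
    rw [e, Nat.factorization_mul Nat.card_pos.ne' (by positivity), Finsupp.add_apply, hm,
      Nat.prime_two.factorization_pow]
    simp
  · rw [hidx]; exact card_le_of_le hrange
  · rw [hidx, card_le_two_iff]
    constructor
    · rintro h ⟨_, a, rfl⟩ ⟨_, b, rfl⟩ ha hb
      apply Subtype.ext
      show φ a = φ b
      rw [hφ, hφ, h a a.2 b b.2]
      · intro e; apply ha; apply Subtype.ext; show φ a = 1; rw [hφ, e]; simp
      · intro e; apply hb; apply Subtype.ext; show φ b = 1; rw [hφ, e]; simp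
    · intro h a ha b hb ea eb
      have := h ⟨_, ⟨a, ha⟩, rfl⟩ ⟨_, ⟨b, hb⟩, rfl⟩
        (fun e => ea (mul_inv_eq_one.1 (congrArg Subtype.val e)))
        (fun e => eb (mul_inv_eq_one.1 (congrArg Subtype.val e)))
      exact mul_right_cancel (congrArg Subtype.val this)

end H86.RC
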